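import Cfsg.Agent.H18.ChevMap
import Cfsg.Prelude.Def_ChevG2

/-!
# The Chevalley groups of type `G₂` over isomorphic fields are isomorphic

Entrywise application of a field isomorphism to matrices carries root elements to root elements
(`Cfsg.Agent.H18.xMat_map`), hence the group they generate onto the group they generate.
(The same argument as the transport section of `Cfsg.Agent.S3662`, restated here so as not to import
that statement's other material.)
-/

set_option autoImplicit false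

namespace Cfsg.Agent.Lib.Helper29.G24Field

open Matrix Cfsg

variable {F K : Type*} [Field F] [Field K]

/-- entrywise application of a field isomorphism, on invertible matrices -/
noncomputable def glMapEquiv (e : F ≃+* K) :
    GL Cfsg.Lie.chevG2.Idx F ≃* GL Cfsg.Lie.chevG2.Idx K :=
  Units.mapEquiv (RingEquiv.mapMatrix e).toMulEquiv

theorem glMapEquiv_val (e : F ≃+* K) (g : GL Cfsg.Lie.chevG2.Idx F) :
    ((glMapEquiv e g : GL Cfsg.Lie.chevG2.Idx K) :
      Matrix Cfsg.Lie.chevG2.Idx Cfsg.Lie.chevG2.Idx K) =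
      (g : Matrix Cfsg.Lie.chevG2.Idx Cfsg.Lie.chevG2.Idx F).map e := rfl

theorem glMapEquiv_symm_val (e : F ≃+* K) (g : GL Cfsg.Lie.chevG2.Idx K) :
    (((glMapEquiv e).symm g : GL Cfsg.Lie.chevG2.Idx F) :
      Matrix Cfsg.Lie.chevG2.Idx Cfsg.Lie.chevG2.Idx F) =
      (g : Matrix Cfsg.Lie.chevG2.Idx Cfsg.Lie.chevG2.Idx K).map e.symm := rfl

theorem map_chevG2 (e : F ≃+* K) :
    (Cfsg.Lie.chevG2.group F).map ((glMapEquiv e : _ ≃* _) : _ →* _) = Cfsg.Lie.chevG2.group K := by
  unfold Cfsg.Lie.ChevalleyDatum.group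
  rw [MonoidHom.map_closure]
  congr 1
  ext g'
  constructor
  · rintro ⟨g, ⟨r, t, hg⟩, rfl⟩
    refine ⟨r, e t, ?_⟩
    show ((glMapEquiv e g : GL Cfsg.Lie.chevG2.Idx K) :
      Matrix Cfsg.Lie.chevG2.Idx Cfsg.Lie.chevG2.Idx K) = _
    rw [glMapEquiv_val, hg]
    exact Cfsg.Agent.H18.xMat_map _ (e : F →+* K) r t
  · rintro ⟨r, t, hg⟩
    refine ⟨(glMapEquiv e).symm g', ⟨r, e.symm t, ?_⟩, (glMapEquiv e).apply_symm_apply g'⟩
    rw [glMapEquiv_symm_val, hg]
    exact Cfsg.Agent.H18.xMat_map _ (e.symm : K →+* F) r t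

/-- the Chevalley groups of type `G₂` over isomorphic fields are isomorphic -/
noncomputable def chevG2Equiv (e : F ≃+* K) :
    ↥(Cfsg.Lie.chevG2.group F) ≃* ↥(Cfsg.Lie.chevG2.group K) :=
  ((glMapEquiv e).subgroupMap (Cfsg.Lie.chevG2.group F)).trans
    (MulEquiv.subgroupCongr (map_chevG2 e))

end Cfsg.Agent.Lib.Helper29.G24Field
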