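import Cfsg.Agent.Lib.Helper29.G24J2.Main
import Cfsg.Agent.Lib.Helper29.G24J2.Bridge
import Cfsg.Agent.Lib.Helper29.G24J2.Field
import Cfsg.Prelude.Def_Spor_J2

/-!
# `G₂(4)` on the cosets of `J₂` is extremely primitive

Assembly: the sub-presentation `PB` on `a, …, f` of the Suzuki presentation is isomorphic to the
Chevalley group over any field with four elements, its subgroup `HB = ⟨a, …, e⟩` is maximal, is
isomorphic to the sub-presentation `PC` on `a, …, e`, which is isomorphic to the group generated by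
four explicit permutations of 315 points (orders), and `HB ∩ HBˣ` is maximal in `HB` for `x ∉ HB`.
The identification of the permutation group with the Hall–Janko group `Cfsg.Spor.J2` (helper60's
`j2_equiv`) and its order enter as hypotheses.
-/

set_option autoImplicit false

namespace Cfsg.Agent.Lib.Helper29.G24J2

open Cfsg.Agent.Lib.Helper29 Cfsg.Agent.Lib.Helper29.TcCox Cfsg.Agent.Lib.Helper29.OrdCox
  Cfsg.Agent.Lib.Helper29.OrdSub Cfsg.Agent.Lib.Helper29.OrdBasic
  Cfsg.Agent.Lib.Helper29.TcPerm Cfsg.Agent.Lib.Helper29.MaxSub Cfsg.Spor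
  Cfsg.Agent.Lib.Helper29.J2Bridge Cfsg.Agent.Lib.Helper29.G24Field
  Cfsg.Agent.Lib.Helper86.Sp4F4

local notation "PB" => CoxPresented Suz.Gen SuzB.edgesQ (SuzB.extraWords.map FreeGroup.mk)
local notation "PC" => CoxPresented Suz.Gen SuzC.edgesQ (SuzC.extraWords.map FreeGroup.mk)

/-- the sub-presentation on `a, …, e` is isomorphic to the group generated by the four table rows -/
theorem isoPC (q : Fin 4 → Equiv.Perm (Fin 315))
    (hq : ∀ (t : Fin 4) (i : Fin 315), ((q t i : Fin 315) : ℕ) = tf t i)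
    (hcard : Nat.card (Subgroup.closure (Set.range q)) = 604800) :
    Nonempty (PC ≃* Subgroup.closure (Set.range q)) := by
  have hr := range_theta q hq
  have hmem : ∀ p : PC, theta p ∈ Subgroup.closure (Set.range q) := by
    intro p
    rw [← hr]
    exact ⟨p, rfl⟩
  apply G24Iso.equiv_of_surj (theta.codRestrict (Subgroup.closure (Set.range q)) hmem)
  · rintro ⟨g, hg⟩
    rw [← hr] at hg
    obtain ⟨p, rfl⟩ := hg
    exact ⟨p, rfl⟩
  · rw [hcard]
    exact SuzMain.cardC.2.trans (by norm_num)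

theorem final (q : Fin 4 → Equiv.Perm (Fin 315))
    (hq : ∀ (t : Fin 4) (i : Fin 315), ((q t i : Fin 315) : ℕ) = tf t i)
    (hJ : Nonempty (J2 ≃* Subgroup.closure (Set.range q))) (hcard : Nat.card J2 = 604800)
    {F : Type*} [Field F] [Fintype F] (hF : Fintype.card F = 4) :
    ∃ H : Subgroup (Cfsg.Lie.chevG2.group F), IsCoatom H ∧ Cfsg.Spor.IsoJ2 H ∧
      ∀ x : Cfsg.Lie.chevG2.group F, x ∉ H →
        IsCoatom ((H ⊓ H.map (MulAut.conj x).toMonoidHom).subgroupOf H) := by
  obtain ⟨e1⟩ := G24Iso.isoChev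
  obtain ⟨eJ⟩ := hJ
  have hc : Fintype.card F4 = Fintype.card F := by rw [hF, F4.card]
  let E : PB ≃* Cfsg.Lie.chevG2.group F :=
    e1.trans (chevG2Equiv (FiniteField.ringEquivOfCardEq hc))
  refine ⟨HB.map E.toMonoidHom, isCoatom_map_equiv E maxB, ?_, transfer E HB main⟩
  obtain ⟨e3⟩ := isoPC q hq (by rw [← Nat.card_congr eJ.toEquiv, hcard])
  let e4 : PC ≃* iotaC.range := MonoidHom.ofInjective iotaC_inj
  let e5 : iotaC.range ≃* HB := MulEquiv.subgroupCongr range_iotaC
  let e6 : HB ≃* HB.map E.toMonoidHom := E.subgroupMap HB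
  exact ⟨e6.symm.trans (e5.symm.trans (e4.symm.trans (e3.trans eJ.symm)))⟩

end Cfsg.Agent.Lib.Helper29.G24J2
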