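import Mathlib

/-!
# Maximal subgroups of a subgroup, and their transport

`MaxIn K H` says that `K` is a maximal proper subgroup of `H`, both being subgroups of the same
group; it gives `IsCoatom (K.subgroupOf H)` and is carried along isomorphisms and conjugations.
The last lemma carries "every two-point stabiliser is maximal in the point stabiliser" along an
isomorphism.
-/

set_option autoImplicit false

namespace Cfsg.Agent.Lib.Helper29.MaxSub

variable {G G' : Type*} [Group G] [Group G']

/-- `K` is a maximal proper subgroup of `H` -/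
def MaxIn (K H : Subgroup G) : Prop :=
  K < H ∧ ∀ M : Subgroup G, K ≤ M → M ≤ H → M = K ∨ M = H

theorem isCoatom_subgroupOf {K H : Subgroup G} (h : MaxIn K H) : IsCoatom (K.subgroupOf H) := by
  obtain ⟨hlt, hmax⟩ := h
  constructor
  · intro htop
    exact absurd (Subgroup.subgroupOf_eq_top.1 htop) (not_le_of_gt hlt)
  · intro M hM
    have h1 : K ≤ M.map H.subtype := by
      intro k hk
      exact ⟨⟨k, hlt.le hk⟩, hM.le (show (⟨k, hlt.le hk⟩ : H) ∈ K.subgroupOf H from hk), rfl⟩
    have h2 : M.map H.subtype ≤ H := by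
      rintro _ ⟨m, _, rfl⟩
      exact m.2
    rcases hmax _ h1 h2 with h | h
    · exfalso
      apply hM.not_ge
      intro m hm
      have h3 : (m : G) ∈ M.map H.subtype := ⟨m, hm, rfl⟩
      rw [h] at h3
      exact h3
    · rw [eq_top_iff]
      intro m _
      have h3 : (m : G) ∈ M.map H.subtype := by rw [h]; exact m.2
      obtain ⟨m', hm', e⟩ := h3
      have h4 : m' = m := Subtype.ext e
      rw [← h4]
      exact hm'

theorem maxIn_map_equiv (E : G ≃* G') {K H : Subgroup G} (h : MaxIn K H) :
    MaxIn (K.map E.toMonoidHom) (H.map E.toMonoidHom) := by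
  obtain ⟨hlt, hmax⟩ := h
  refine ⟨(Subgroup.map_lt_map_iff_of_injective E.injective).2 hlt, ?_⟩
  intro M h1 h2
  have e : (M.comap E.toMonoidHom).map E.toMonoidHom = M :=
    Subgroup.map_comap_eq_self_of_surjective E.surjective M
  have h3 : M.comap E.toMonoidHom ≤ H := by
    intro x hx
    obtain ⟨y, hy, hxy⟩ := h2 hx
    have h4 : y = x := E.injective hxy
    rw [← h4]
    exact hy
  rcases hmax (M.comap E.toMonoidHom) (Subgroup.map_le_iff_le_comap.1 h1) h3 with h | h
  · left; rw [← e, h]
  · right; rw [← e, h]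

theorem maxIn_of_isCoatom_map (f : G →* G') (hf : Function.Injective f) {K : Subgroup G}
    (h : IsCoatom K) : MaxIn (K.map f) f.range := by
  refine ⟨?_, ?_⟩
  · rw [MonoidHom.range_eq_map]
    exact (Subgroup.map_lt_map_iff_of_injective hf).2 h.lt_top
  · intro M h1 h2
    have e : (M.comap f).map f = M := Subgroup.map_comap_eq_self h2
    rcases h.le_iff.1 (Subgroup.map_le_iff_le_comap.1 h1) with h' | h'
    · right; rw [← e, h', MonoidHom.range_eq_map]
    · left; rw [← e, h']

theorem map_conj_self {H : Subgroup G} (g : G) (hg : g ∈ H) :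
    H.map (MulAut.conj g).toMonoidHom = H := by
  ext x
  constructor
  · rintro ⟨y, hy, rfl⟩
    exact H.mul_mem (H.mul_mem hg hy) (H.inv_mem hg)
  · intro hx
    exact ⟨g⁻¹ * x * g, H.mul_mem (H.mul_mem (H.inv_mem hg) hx) hg, by
      simp [MulAut.conj_apply, mul_assoc]⟩

theorem maxIn_conj {K H : Subgroup G} (g : G) (hg : g ∈ H) (h : MaxIn K H) :
    MaxIn (K.map (MulAut.conj g).toMonoidHom) H := by
  have h1 := maxIn_map_equiv (MulAut.conj g) h
  rwa [map_conj_self g hg] at h1

/-- maximality of all two-point stabilisers in the point stabiliser, along an isomorphism -/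
theorem transfer (E : G ≃* G') (H : Subgroup G)
    (h : ∀ x : G, x ∉ H → MaxIn (H ⊓ H.map (MulAut.conj x).toMonoidHom) H) :
    ∀ x : G', x ∉ H.map E.toMonoidHom →
      IsCoatom (((H.map E.toMonoidHom) ⊓
        (H.map E.toMonoidHom).map (MulAut.conj x).toMonoidHom).subgroupOf
          (H.map E.toMonoidHom)) := by
  intro x hx
  have hx' : E.symm x ∉ H := fun hh => hx ⟨E.symm x, hh, E.apply_symm_apply x⟩
  have hm := maxIn_map_equiv E (h _ hx')
  have e : (H ⊓ H.map (MulAut.conj (E.symm x)).toMonoidHom).map E.toMonoidHom =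
      H.map E.toMonoidHom ⊓ (H.map E.toMonoidHom).map (MulAut.conj x).toMonoidHom := by
    rw [Subgroup.map_inf _ _ _ E.injective, Subgroup.map_map, Subgroup.map_map]
    congr 2
    ext y
    simp [MulAut.conj_apply]
  rw [e] at hm
  exact isCoatom_subgroupOf hm

theorem isCoatom_map_equiv (E : G ≃* G') {H : Subgroup G} (h : IsCoatom H) :
    IsCoatom (H.map E.toMonoidHom) :=
  (OrderIso.isCoatom_iff (MulEquiv.mapSubgroup E) H).2 h

/-- an injective homomorphism from a finite group of order at most that of its range -/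
theorem injective_of_card_le [Finite G] (f : G →* G') (hc : Nat.card G ≤ Nat.card f.range) :
    Function.Injective f := by
  have hs : Function.Surjective f.rangeRestrict := f.rangeRestrict_surjective
  have hc' : Nat.card G = Nat.card f.range :=
    le_antisymm hc (Nat.card_le_card_of_surjective _ hs)
  have hb : Function.Bijective f.rangeRestrict :=
    (Nat.bijective_iff_surjective_and_card _).2 ⟨hs, hc'⟩
  intro x y hxy
  exact hb.1 (Subtype.ext hxy)

end Cfsg.Agent.Lib.Helper29.MaxSub
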