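import Cfsg.Agent.Lib.Helper29.G24Iso
import Cfsg.Agent.Lib.Helper29.SuzG1.Ok
import Cfsg.Agent.Lib.Helper29.SuzG2.Ok
import Cfsg.Agent.Lib.Helper29.G24J2.MaxIn

/-!
# `⟨a, …, e⟩` in `G₂(4) = ⟨a, …, f⟩`: maximal, with maximal two-point stabilisers

`PB` is the sub-presentation on `a, …, f` of the Suzuki presentation (isomorphic to `G₂(4)`,
`G24Iso.isoChev`) and `HB = ⟨a, …, e⟩` its subgroup of index 416, the stabiliser of the point `0`
of the coset representation `phi SuzB.ok`.  `HB` has the orbits `{0}`, of length 315 and of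
length 100 on the 416 points.  The sub-presentation `PC` on `a, …, e` maps isomorphically onto
`HB` (orders), and the stabilisers in `HB` of the points `299` and `4108` are the images of the
subgroups `⟨a, c, e, bcdcb, dcdedcd⟩` and `⟨b, c, abcd, edcbabcde⟩` of `PC`, which are maximal by
the orbit lengths `1, 160, 80, 32, 32, 10` and `1, 63, 36` of the coset enumerations `SuzG1`,
`SuzG2`.  Hence `HB ∩ HBˣ` is maximal in `HB` for every `x ∉ HB` (`main`).
-/

set_option autoImplicit false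

namespace Cfsg.Agent.Lib.Helper29.G24J2

open Cfsg.Agent.Lib.Helper29 Cfsg.Agent.Lib.Helper29.TcCox Cfsg.Agent.Lib.Helper29.OrdCox
  Cfsg.Agent.Lib.Helper29.OrdSub Cfsg.Agent.Lib.Helper29.OrdBasic
  Cfsg.Agent.Lib.Helper29.TcPerm Cfsg.Agent.Lib.Helper29.MaxSub Cfsg.Spor

local notation "PB" => CoxPresented Suz.Gen SuzB.edgesQ (SuzB.extraWords.map FreeGroup.mk)
local notation "PC" => CoxPresented Suz.Gen SuzC.edgesQ (SuzC.extraWords.map FreeGroup.mk)
local notation "XB" => SuzB.extraWords.map FreeGroup.mk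
local notation "XC" => SuzC.extraWords.map FreeGroup.mk
local notation "φ" => phi SuzB.ok

/-- the subgroup `⟨a, …, e⟩` -/
abbrev HB : Subgroup PB := Hsub SuzB.edgesQ XB SuzB.hWords

theorem HB_stab : HB = TcIndex.stab φ 0 := (cox_index_stab SuzB.ok).2

theorem HB_index : HB.index = 416 := (cox_index_stab SuzB.ok).1

/-- `⟨a, …, e⟩` is maximal in `⟨a, …, f⟩` -/
theorem maxB : IsCoatom HB :=
  isCoatom_of_ok SuzB.ok [4108] rfl (by decide +kernel) (by norm_num) (by decide +kernel)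

theorem card_PB : Nat.card PB = 251596800 := by
  obtain ⟨e⟩ := G24Iso.isoChev
  rw [Nat.card_congr e.toEquiv, G24Iso.card_chev]

theorem card_HB : Nat.card HB = 604800 := by
  have h := Subgroup.card_mul_index HB
  rw [HB_index, card_PB] at h
  exact Nat.eq_of_mul_eq_mul_right (by norm_num : 0 < 416) (h.trans (by norm_num))

/-- the natural map from the sub-presentation on `a, …, e` -/
noncomputable def iotaC : PC →* PB :=
  subHom SuzB.edgesQ SuzC.edgesQ XB SuzB.extraWords SuzC.extraWords SuzB.ok.hextra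
    (by decide) (by decide) (by decide)

theorem iotaC_lw (w : List (Suz.Gen × Bool)) :
    iotaC (lw SuzC.edgesQ XC w) = lw SuzB.edgesQ XB (w.filter (inJ SuzC.edgesQ)) :=
  subHom_lw _ _ _ _ _ _ _ _ _ w

theorem range_iotaC : iotaC.range = HB := by
  apply le_antisymm
  · rw [MonoidHom.range_eq_map, ← PresentedGroup.closure_range_of, MonoidHom.map_closure,
      Subgroup.closure_le]
    rintro _ ⟨_, ⟨x, rfl⟩, rfl⟩
    have e : iotaC (PresentedGroup.of x) = lw SuzB.edgesQ XB ([(x, true)].filter (inJ SuzC.edgesQ)) :=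
      iotaC_lw [(x, true)]
    rw [SetLike.mem_coe, e]
    cases x
    · exact Subgroup.subset_closure ⟨[(.a, true)], by decide, rfl⟩
    · exact Subgroup.subset_closure ⟨[(.b, true)], by decide, rfl⟩
    · exact Subgroup.subset_closure ⟨[(.c, true)], by decide, rfl⟩
    · exact Subgroup.subset_closure ⟨[(.d, true)], by decide, rfl⟩
    · exact Subgroup.subset_closure ⟨[(.e, true)], by decide, rfl⟩
    · rw [show ([(Suz.Gen.f, true)].filter (inJ SuzC.edgesQ)) = [] by decide, lw_nil]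
      exact Subgroup.one_mem _
    · rw [show ([(Suz.Gen.g, true)].filter (inJ SuzC.edgesQ)) = [] by decide, lw_nil]
      exact Subgroup.one_mem _
  · refine (Subgroup.closure_le _).2 ?_
    rintro _ ⟨w, hw, rfl⟩
    refine ⟨lw SuzC.edgesQ XC w, ?_⟩
    rw [iotaC_lw]
    have h4 : ∀ w ∈ SuzB.hWords, w.filter (inJ SuzC.edgesQ) = w := by decide
    rw [h4 w hw]

instance finPC : Finite PC := SuzMain.cardC.1

theorem iotaC_inj : Function.Injective iotaC := by
  apply injective_of_card_le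
  rw [range_iotaC, card_HB]
  exact SuzMain.cardC.2.trans (by norm_num)

/-- `⟨a, c, e, bcdcb, dcdedcd⟩` is maximal in the sub-presentation on `a, …, e` -/
theorem maxK1 : IsCoatom (Hsub SuzC.edgesQ XC SuzG1.hWords) :=
  isCoatom_of_ok SuzG1.ok [1932, 2892, 3276, 3660] rfl (by decide +kernel) (by norm_num)
    (by decide +kernel)

/-- `⟨b, c, abcd, edcbabcde⟩` is maximal in the sub-presentation on `a, …, e` -/
theorem maxK2 : IsCoatom (Hsub SuzC.edgesQ XC SuzG2.hWords) :=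
  isCoatom_of_ok SuzG2.ok [640] rfl (by decide +kernel) (by norm_num) (by decide +kernel)

theorem map_K_le (hW : List (List (Suz.Gen × Bool))) (p : ℕ) (hp : ValidL SuzB.P p)
    (hfix : ∀ w ∈ hW, w.filter (inJ SuzC.edgesQ) = w ∧ runL SuzB.P (w.map SuzB.colOf) p = p) :
    (Hsub SuzC.edgesQ XC hW).map iotaC ≤ HB ⊓ TcIndex.stab φ p := by
  rw [Subgroup.map_le_iff_le_comap, Subgroup.closure_le]
  rintro _ ⟨w, hw, rfl⟩
  obtain ⟨h1, h2⟩ := hfix w hw
  refine ⟨?_, ?_⟩
  · have h3 : iotaC (lw SuzC.edgesQ XC w) ∈ iotaC.range := ⟨_, rfl⟩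
    rw [range_iotaC] at h3
    exact h3
  · change φ (iotaC (lw SuzC.edgesQ XC w)) p = p
    rw [iotaC_lw, h1, phi_lw_valid SuzB.ok w p hp]
    exact h2

theorem stab_lt (p : ℕ) (hp : ValidL SuzB.P p) (w : List (Suz.Gen × Bool)) (hw : w ∈ SuzB.hWords)
    (hmv : runL SuzB.P (w.map SuzB.colOf) p ≠ p) : HB ⊓ TcIndex.stab φ p < HB := by
  refine lt_of_le_of_ne inf_le_left ?_
  intro e
  have hmem : lw SuzB.edgesQ XB w ∈ HB := Subgroup.subset_closure ⟨w, hw, rfl⟩
  rw [← e] at hmem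
  have h2 : φ (lw SuzB.edgesQ XB w) p = p := hmem.2
  rw [phi_lw_valid SuzB.ok w p hp] at h2
  exact hmv h2

theorem maxIn_S (hW : List (List (Suz.Gen × Bool))) (p : ℕ)
    (hK : IsCoatom (Hsub SuzC.edgesQ XC hW))
    (hle : (Hsub SuzC.edgesQ XC hW).map iotaC ≤ HB ⊓ TcIndex.stab φ p)
    (hlt : HB ⊓ TcIndex.stab φ p < HB) : MaxIn (HB ⊓ TcIndex.stab φ p) HB := by
  have h := maxIn_of_isCoatom_map iotaC iotaC_inj hK
  rw [range_iotaC] at h
  rcases h.2 _ hle inf_le_left with e | e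
  · rw [e]; exact h
  · exact absurd e (ne_of_lt hlt)

theorem valid299 : ValidL SuzB.P 299 := by decide +kernel

theorem valid4108 : ValidL SuzB.P 4108 := by decide +kernel

/-- the stabiliser of the point `299` in `HB` is maximal in `HB` -/
theorem maxS1 : MaxIn (HB ⊓ TcIndex.stab φ 299) HB :=
  maxIn_S SuzG1.hWords 299 maxK1
    (map_K_le SuzG1.hWords 299 valid299 (by decide +kernel))
    (stab_lt 299 valid299 [(.b, true)] (by decide) (by decide +kernel))

/-- the stabiliser of the point `4108` in `HB` is maximal in `HB` -/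
theorem maxS2 : MaxIn (HB ⊓ TcIndex.stab φ 4108) HB :=
  maxIn_S SuzG2.hWords 4108 maxK2
    (map_K_le SuzG2.hWords 4108 valid4108 (by decide +kernel))
    (stab_lt 4108 valid4108 [(.a, true)] (by decide) (by decide +kernel))

theorem perm_inv_apply {X : Type*} (f : Equiv.Perm X) (x : X) : f⁻¹ (f x) = x :=
  f.symm_apply_apply x

theorem stab_map_conj {G : Type*} [Group G] (ψ : G →* Equiv.Perm ℕ) (g : G) (p : ℕ) :
    (TcIndex.stab ψ p).map (MulAut.conj g).toMonoidHom = TcIndex.stab ψ (ψ g p) := by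
  ext y
  constructor
  · rintro ⟨h, hh, rfl⟩
    have hh' : ψ h p = p := hh
    change ψ (g * h * g⁻¹) (ψ g p) = ψ g p
    rw [map_mul, map_mul, map_inv, Equiv.Perm.mul_apply, Equiv.Perm.mul_apply, perm_inv_apply, hh']
  · intro hy
    have hy' : ψ y (ψ g p) = ψ g p := hy
    refine ⟨g⁻¹ * y * g, ?_, ?_⟩
    · change ψ (g⁻¹ * y * g) p = p
      rw [map_mul, map_mul, map_inv, Equiv.Perm.mul_apply, Equiv.Perm.mul_apply, hy',
        perm_inv_apply]
    · simp [MulAut.conj_apply, mul_assoc]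

theorem maxIn_orbit (p : ℕ) (h : MaxIn (HB ⊓ TcIndex.stab φ p) HB) (g : PB) (hg : g ∈ HB) :
    MaxIn (HB ⊓ TcIndex.stab φ (φ g p)) HB := by
  have h1 := maxIn_conj g hg h
  rwa [Subgroup.map_inf _ _ _ (MulAut.conj g).injective, map_conj_self g hg, stab_map_conj] at h1

theorem orb1 : {y | ∃ h ∈ HB, φ h 13 = y} = {x | x % 13 = 0 ∧ 13 ≤ x ∧ x < 4108} :=
  cox_orbit SuzB.ok 13 4108 (by decide) (Or.inl (by decide)) (by norm_num) (by decide)

theorem orb2 : {y | ∃ h ∈ HB, φ h 4108 = y} = {x | x % 13 = 0 ∧ 4108 ≤ x ∧ x < 5408} :=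
  cox_orbit SuzB.ok 4108 5408 (by decide) (Or.inr rfl) (by norm_num) (by decide)

/-- for `x` outside `HB = ⟨a, …, e⟩`, the intersection of `HB` with its conjugate by `x` is a maximal
subgroup of `HB` -/
theorem main : ∀ x : PB, x ∉ HB → MaxIn (HB ⊓ HB.map (MulAut.conj x).toMonoidHom) HB := by
  intro x hx
  have e : HB.map (MulAut.conj x).toMonoidHom = TcIndex.stab φ (φ x 0) := by
    have e1 := stab_map_conj φ x 0
    rw [← HB_stab] at e1
    exact e1
  rw [e]
  have hq0 : φ x 0 ≠ 0 := by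
    intro h0
    apply hx
    rw [HB_stab]
    exact h0
  obtain ⟨hq1, hq2⟩ := phi_zero SuzB.ok x
  have hq1' : φ x 0 % 13 = 0 := hq1
  have hq2' : φ x 0 < 5408 := hq2
  by_cases hlt : φ x 0 < 4108
  · have hmem : φ x 0 ∈ {x | x % 13 = 0 ∧ 13 ≤ x ∧ x < 4108} := ⟨hq1', by omega, hlt⟩
    rw [← orb1] at hmem
    obtain ⟨h, hh, hhq⟩ := hmem
    have h299 : (299 : ℕ) ∈ {x | x % 13 = 0 ∧ 13 ≤ x ∧ x < 4108} :=
      ⟨by norm_num, by norm_num, by norm_num⟩
    rw [← orb1] at h299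
    obtain ⟨h0, hh0, e0⟩ := h299
    have e2 : φ (h * h0⁻¹) 299 = φ x 0 := by
      rw [map_mul, Equiv.Perm.mul_apply, map_inv, ← e0, perm_inv_apply, hhq]
    rw [← e2]
    exact maxIn_orbit 299 maxS1 _ (HB.mul_mem hh (HB.inv_mem hh0))
  · have hmem : φ x 0 ∈ {x | x % 13 = 0 ∧ 4108 ≤ x ∧ x < 5408} := ⟨hq1', by omega, hq2'⟩
    rw [← orb2] at hmem
    obtain ⟨h, hh, hhq⟩ := hmem
    rw [← hhq]
    exact maxIn_orbit 4108 maxS2 _ hh

end Cfsg.Agent.Lib.Helper29.G24J2
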